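import Mathlib

set_option autoImplicit false
set_option Elab.async false
set_option maxRecDepth 100000
set_option linter.all false

namespace Cfsg.Agent.TcData.HNH.W

/-- A part of the program of the generator. -/
noncomputable def pr_x_0 : List (ℕ × ℕ) := [
  (nat_lit 0x4040800c302ceb20, nat_lit 64),
  (nat_lit 0xd0e8000000000000621c8ee2, nat_lit 32),
  (nat_lit 0xd020000049c0000038d100000987, nat_lit 16),
  (nat_lit 0xc0001000180040008100e70023004a, nat_lit 8),
  (nat_lit 0x8000c0100050a05050f090103030d, nat_lit 4),
  (nat_lit 0x30220033312230020201301223, nat_lit 2),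
  (nat_lit 0x40004051444541504055514014441541, nat_lit 1),
  (nat_lit 0x220000000000022022020000, nat_lit 2),
  (nat_lit 0xc00000a0a08040e04000a060e, nat_lit 4),
  (nat_lit 0xc00010001800400010007a00820020, nat_lit 8),
  (nat_lit 0xd020000049c00000c74200001678, nat_lit 16),
  (nat_lit 0xd0e8000000000000621c8ee2, nat_lit 32),
  (nat_lit 0x4040800c302ceb00, nat_lit 64)]

end Cfsg.Agent.TcData.HNH.W
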