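import Mathlib
import Cfsg.Agent.TcData.HNH.W.Pr_x_0

set_option autoImplicit false
set_option Elab.async false
set_option maxRecDepth 100000
set_option linter.all false

namespace Cfsg.Agent.TcData.HNH.W

/-- The program of the generator. -/
noncomputable def pr_x : List (ℕ × ℕ) := pr_x_0

end Cfsg.Agent.TcData.HNH.W
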