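import Mathlib

set_option autoImplicit false
set_option Elab.async false
set_option maxRecDepth 100000
set_option linter.all false

namespace Cfsg.Agent.TcData.HNH.W

/-- A part of the program of the generator. -/
noncomputable def pr_y_0 : List (ℕ × ℕ) := [
  (nat_lit 0xf8000005ea40c3d0, nat_lit 64),
  (nat_lit 0xafd2fa110000000082994538, nat_lit 32),
  (nat_lit 0x75060000f944000002450000f860, nat_lit 16),
  (nat_lit 0x8e000a006000840070009f006200b5, nat_lit 8),
  (nat_lit 0x4040d0906000c0a020608060704060b, nat_lit 4),
  (nat_lit 0x12020220030120223102022002230033, nat_lit 2),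
  (nat_lit 0x44044510040014055041451054001414, nat_lit 1),
  (nat_lit 0x22002020020000000022200002002222, nat_lit 2),
  (nat_lit 0x2040e0806000c08040e02080a04000c, nat_lit 4),
  (nat_lit 0x5c00020060000c00f00034007000ac, nat_lit 8),
  (nat_lit 0xf7040000f940000004b20000e540, nat_lit 16),
  (nat_lit 0x1fd2fa1a0000000080824030, nat_lit 32),
  (nat_lit 0xf800000280421160, nat_lit 64)]

end Cfsg.Agent.TcData.HNH.W
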