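import Mathlib

set_option autoImplicit false
set_option Elab.async false
set_option maxRecDepth 100000
set_option linter.all false

namespace Cfsg.Agent.TcData.HNH.W

/-- A part of the program of the generator. -/
noncomputable def pr_z_0 : List (ℕ × ℕ) := [
  (nat_lit 0x8020000007000000, nat_lit 64),
  (nat_lit 0xc030000000000000de800000, nat_lit 32),
  (nat_lit 0xe7240000590000002c40, nat_lit 16),
  (nat_lit 0xe00002000000c100f80000, nat_lit 8),
  (nat_lit 0xa080401000c040c020d00, nat_lit 4),
  (nat_lit 0x22023202210230312100212, nat_lit 2),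
  (nat_lit 0x40100011444510410405101000054004, nat_lit 1),
  (nat_lit 0x22020200200200000000002, nat_lit 2),
  (nat_lit 0xa080400000c040c020c00, nat_lit 4),
  (nat_lit 0xe000020000008000f80000, nat_lit 8),
  (nat_lit 0xe7240000590000002c40, nat_lit 16),
  (nat_lit 0xc030000000000000de800000, nat_lit 32),
  (nat_lit 0x8020000007000000, nat_lit 64)]

end Cfsg.Agent.TcData.HNH.W
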