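import Mathlib
import Cfsg.Agent.TcData.HNH.W.Pr_x
import Cfsg.Agent.TcData.HNH.W.Pr_y
import Cfsg.Agent.TcData.HNH.W.Pr_z
import Cfsg.Agent.TcData.HNH.Common

set_option autoImplicit false
set_option Elab.async false
set_option maxRecDepth 100000
set_option linter.all false

namespace Cfsg.Agent.TcData.HNH.W

open Cfsg.Spor Cfsg.Agent.Lib.TcFacts Cfsg.Agent.Lib.TcBits Cfsg.Agent.Lib.TcPres Cfsg.Spor.HN Cfsg.Agent.TcData.HNH

/-- The programs of the generators. -/
noncomputable def pr : Gen → List (ℕ × ℕ)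
  | .x => pr_x
  | .y => pr_y
  | .z => pr_z
  | .t => []

theorem hv : ∀ x, validProg (2 ^ 7) (pr x) = true := by
  intro x; cases x <;> decide +kernel

/-- The check of a relator on a slice. -/
noncomputable def chkW (r : FreeGroup Gen) (j : ℕ) : Bool :=
  Nat.beq (wordApply (sgnProg pr) r.toWord (slice 7 j)) (slice 7 j)

theorem of_chkW {r : FreeGroup Gen} (h : ∀ j, j < 7 → chkW r j = true) :
    ∀ j, j < 7 → wordApply (sgnProg pr) r.toWord (slice 7 j) = slice 7 j :=
  fun j hj => Nat.eq_of_beq_eq_true (h j hj)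

end Cfsg.Agent.TcData.HNH.W
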