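import Mathlib
import Cfsg.Agent.TcData.HNH.W.Rel

set_option autoImplicit false
set_option Elab.async false
set_option maxRecDepth 100000
set_option linter.all false

namespace Cfsg.Agent.TcData.HNH.W

open Cfsg.Spor Cfsg.Agent.Lib.TcFacts Cfsg.Agent.Lib.TcBits Cfsg.Agent.Lib.TcPres Cfsg.Spor.HN Cfsg.Agent.TcData.HNH

theorem he0 : ∀ i, i < extraH.length → ∀ j, j < 7 → chkW (extraH.getD i 1) j = true := by
  intro i hi
  have hl : extraH.length = 10 := by decide +kernel
  rw [hl] at hi
  interval_cases i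
  exacts [e_0, e_1, e_2, e_3, e_4, e_5, e_6, e_7, e_8, e_9]

theorem he : ∀ r ∈ extraH, ∀ j, j < 7 → chkW r j = true := by
  intro r hr
  obtain ⟨i, hi, rfl⟩ := List.getElem_of_mem hr
  have := he0 i hi
  rwa [List.getD_eq_getElem _ _ hi] at this

theorem hR : ∀ r ∈ RR, FreeGroup.lift (genPerm pr) r = 1 :=
  lift_of_checks hnodes hv (fun x hx y hy => by simp [nodesL] at hx) (fun r hr => of_chkW (he r hr))

/-- The representation. -/
noncomputable def Phi : PresentedGroup RR →* Equiv.Perm ℕ := repOf RR pr hR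

end Cfsg.Agent.TcData.HNH.W
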